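import Cfsg.Agent.Constrained.HallHigman
import Mathlib.GroupTheory.Complement

/-!
Weakly closed elements of a Sylow subgroup whose centre lies in `O_{p',p}`: they are a direct
factor of the centre.
-/

set_option autoImplicit false

namespace CfsgLib.Constrained

open Cfsg

variable {G : Type*} [Group G] {p : ℕ}

/-- The norm over the cosets of a Sylow subgroup splits off the fixed points of `G` in `V^S`. -/
theorem exists_complement_fixed_points [Finite G] [Fact p.Prime] (V : Subgroup G) [V.Normal]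
    (hV : ∀ a ∈ V, ∀ b ∈ V, a * b = b * a) (hVp : IsPGroup p ↥V) (S : Sylow p G) :
    ∃ K : Subgroup G, K ≤ V ⊓ Subgroup.centralizer ((S : Subgroup G) : Set G) ∧
      (V ⊓ Subgroup.center G) ⊓ K = ⊥ ∧
      V ⊓ Subgroup.centralizer ((S : Subgroup G) : Set G) ≤ (V ⊓ Subgroup.center G) ⊔ K := by
  classical
  haveI : Fintype (G ⧸ (S : Subgroup G)) := Fintype.ofFinite _
  letI instCommV : CommGroup ↥V :=
    { (inferInstance : Group ↥V) with mul_comm := fun a b => Subtype.ext (hV a a.2 b b.2) }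
  set A := V ⊓ Subgroup.centralizer ((S : Subgroup G) : Set G) with hA
  let F : ↥A → (G ⧸ (S : Subgroup G)) → ↥V := fun v c =>
    ⟨c.out * (v : G) * c.out⁻¹, Subgroup.Normal.conj_mem ‹_› (v : G) v.2.1 c.out⟩
  let T : ↥A →* ↥V :=
    { toFun := fun v => ∏ c, F v c
      map_one' := Finset.prod_eq_one fun c _ => Subtype.ext (by simp [F])
      map_mul' := fun v w => by
        rw [← Finset.prod_mul_distrib]
        refine Finset.prod_congr rfl fun c _ => Subtype.ext ?_
        show c.out * ((v : G) * (w : G)) * c.out⁻¹ =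
          c.out * (v : G) * c.out⁻¹ * (c.out * (w : G) * c.out⁻¹)
        group }
  -- the values are central
  have hT : ∀ v, (T v : G) ∈ Subgroup.center G := by
    intro v
    rw [Subgroup.mem_center_iff]
    intro h
    let φ : ↥V →* ↥V := (MulAut.conjNormal h : MulAut ↥V).toMonoidHom
    have key : ∀ c, φ (F v c) = F v (h • c) := by
      intro c
      apply Subtype.ext
      show h * (c.out * (v : G) * c.out⁻¹) * h⁻¹ = (h • c).out * (v : G) * (h • c).out⁻¹
      obtain ⟨s, hs⟩ : ∃ s : ↥(S : Subgroup G), (h • c).out = h * c.out * (s : G) := by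
        refine ⟨⟨(h * c.out)⁻¹ * (h • c).out, ?_⟩, by group⟩
        rw [← QuotientGroup.eq]
        show ((h * c.out : G) : G ⧸ (S : Subgroup G)) = ((h • c).out : G)
        rw [QuotientGroup.out_eq' (h • c)]
        conv_rhs => rw [← QuotientGroup.out_eq' c]
        rfl
      rw [hs]
      have := Subgroup.mem_centralizer_iff.mp v.2.2 s s.2
      calc h * (c.out * (v : G) * c.out⁻¹) * h⁻¹ = h * c.out * (v : G) * (h * c.out)⁻¹ := by group
        _ = h * c.out * ((s : G) * (v : G) * (s : G)⁻¹) * (h * c.out)⁻¹ := by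
          rw [this, mul_inv_cancel_right]
        _ = _ := by group
    have h2 : φ (T v) = T v := by
      show φ (∏ c, F v c) = ∏ c, F v c
      rw [map_prod]
      exact (Finset.prod_congr rfl fun c _ => key c).trans
        (Fintype.prod_equiv (MulAction.toPerm h) _ _ fun c => rfl)
    have h3 := congrArg Subtype.val h2
    change h * (T v : G) * h⁻¹ = (T v : G) at h3
    exact mul_inv_eq_iff_eq_mul.mp h3
  -- on central elements the norm is the power by the index
  have hpow : ∀ v : ↥A, (v : G) ∈ Subgroup.center G →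
      (T v : G) = (v : G) ^ (S : Subgroup G).index := by
    intro v hv
    have hF : ∀ c, F v c = ⟨(v : G), v.2.1⟩ := by
      intro c
      apply Subtype.ext
      show c.out * (v : G) * c.out⁻¹ = (v : G)
      rw [Subgroup.mem_center_iff.mp hv c.out, mul_inv_cancel_right]
    show ((∏ c, F v c : ↥V) : G) = _
    rw [Finset.prod_congr rfl fun c _ => hF c, Finset.prod_const, Finset.card_univ,
      SubgroupClass.coe_pow, Subgroup.index, Nat.card_eq_fintype_card]
  set Wb := V ⊓ Subgroup.center G with hWb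
  have hWA : Wb ≤ A := fun x hx => ⟨hx.1, Subgroup.center_le_centralizer _ hx.2⟩
  have hcop : (Nat.card ↥Wb).Coprime (S : Subgroup G).index := by
    obtain ⟨n, hn⟩ := IsPGroup.iff_card.mp (hVp.to_le (inf_le_left : Wb ≤ V))
    rw [hn]
    exact ((Nat.Prime.coprime_iff_not_dvd Fact.out).mpr S.not_dvd_index).pow_left n
  refine ⟨T.ker.map A.subtype, Subgroup.map_subtype_le _, ?_, ?_⟩
  · rw [eq_bot_iff]
    rintro x ⟨hxW, v, hv, rfl⟩
    have h1 : (v : G) ^ (S : Subgroup G).index = 1 := by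
      rw [← hpow v hxW.2, MonoidHom.mem_ker.mp hv]
      rfl
    have h2 : (v : G) ^ Nat.card ↥Wb = 1 := by
      have := congrArg Subtype.val (pow_card_eq_one' (x := (⟨(v : G), hxW⟩ : ↥Wb)))
      simpa [-pow_card_eq_one'] using this
    have h3 := pow_gcd_eq_one.mpr ⟨h2, h1⟩
    rw [hcop.gcd_eq_one, pow_one] at h3
    exact h3
  · intro x hx
    obtain ⟨w, hw⟩ := (powCoprime hcop).surjective ⟨(T ⟨x, hx⟩ : G), (T ⟨x, hx⟩).2, hT _⟩
    have hw' : (w : G) ^ (S : Subgroup G).index = (T ⟨x, hx⟩ : G) := congrArg Subtype.val hw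
    have hk : (⟨(w : G), hWA w.2⟩ : ↥A)⁻¹ * ⟨x, hx⟩ ∈ T.ker := by
      rw [MonoidHom.mem_ker, map_mul, map_inv, inv_mul_eq_one]
      apply Subtype.ext
      rw [hpow _ w.2.2]
      exact hw'
    rw [show x = (w : G) * ((w : G)⁻¹ * x) by group]
    exact Subgroup.mul_mem_sup w.2 ⟨_, hk, rfl⟩

/-- If `Z(S) ≤ O_{p',p}(G)` then the weakly closed elements of `S` form a direct factor of `Z(S)`,
and they are the elements of `Z(S)` central modulo the `p'`-core. -/
theorem exists_weakly_closed_factor [Finite G] [Fact p.Prime] (S : Sylow p G)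
    (hZ : ((S : Subgroup G) ⊓ Subgroup.centralizer ((S : Subgroup G) : Set G)) ≤ pPrimePCore p G) :
    ∃ W K : Subgroup G, (∀ x : G, x ∈ W ↔ (x ∈ (S : Subgroup G) ∧
        ∀ g : G, g * x * g⁻¹ ∈ (S : Subgroup G) → g * x * g⁻¹ = x)) ∧
      K ≤ ((S : Subgroup G) ⊓ Subgroup.centralizer ((S : Subgroup G) : Set G)) ∧ W ⊓ K = ⊥ ∧
      W ⊔ K = ((S : Subgroup G) ⊓ Subgroup.centralizer ((S : Subgroup G) : Set G)) := by
  set Z := (S : Subgroup G) ⊓ Subgroup.centralizer ((S : Subgroup G) : Set G) with hZdef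
  set O := pPrimeCore p G with hOdef
  set q := QuotientGroup.mk' O with hq
  set R := pCore p (G ⧸ O) with hR
  let S' : Sylow p (G ⧸ O) := S.mapSurjective (QuotientGroup.mk'_surjective O)
  have hRS : R ≤ (S : Subgroup G).map q := isPGroup_pCore.le_sylow_of_normal S'
  have hinj : ∀ x ∈ (S : Subgroup G), q x = 1 → x = 1 := by
    intro x hx h
    have : x ∈ (S : Subgroup G) ⊓ O := ⟨hx, (QuotientGroup.eq_one_iff x).mp h⟩
    rwa [disjoint_of_isPGroup_of_not_dvd S.isPGroup' pPrimeCore_not_dvd, Subgroup.mem_bot] at this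
  have hinj2 : ∀ x ∈ (S : Subgroup G), ∀ y ∈ (S : Subgroup G), q x = q y → x = y := by
    intro x hx y hy h
    refine inv_mul_eq_one.mp (hinj (x⁻¹ * y) (mul_mem (inv_mem hx) hy) ?_)
    rw [map_mul, map_inv, h, inv_mul_cancel]
  have hcomm : ∀ z ∈ Z, ∀ s ∈ (S : Subgroup G), s * z = z * s := fun z hz s hs =>
    Subgroup.mem_centralizer_iff.mp hz.2 s hs
  set V := (Subgroup.center ↥R).map R.subtype with hV
  have hVcomm : ∀ a ∈ V, ∀ b ∈ V, a * b = b * a := by
    rintro _ ⟨a, ha, rfl⟩ _ ⟨b, _, rfl⟩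
    exact congrArg Subtype.val (Subgroup.mem_center_iff.mp ha b).symm
  have hVp : IsPGroup p ↥V := isPGroup_pCore.to_le (Subgroup.map_subtype_le _)
  haveI : V.Normal := inferInstance
  have hZq : ∀ z ∈ Z, q z ∈ V ⊓ Subgroup.centralizer ((S' : Subgroup (G ⧸ O)) : Set (G ⧸ O)) := by
    intro z hz
    have hc : q z ∈ Subgroup.centralizer ((S' : Subgroup (G ⧸ O)) : Set (G ⧸ O)) := by
      rw [Subgroup.mem_centralizer_iff]
      rintro _ ⟨s, hs, rfl⟩
      rw [← map_mul, ← map_mul, hcomm z hz s hs]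
    refine ⟨⟨⟨q z, hZ hz⟩, ?_, rfl⟩, hc⟩
    rw [SetLike.mem_coe, Subgroup.mem_center_iff]
    intro r
    exact Subtype.ext (Subgroup.mem_centralizer_iff.mp hc r (hRS r.2))
  -- elements of `V` centralizing the Sylow subgroup lift
  have hlift : ∀ y ∈ V ⊓ Subgroup.centralizer ((S' : Subgroup (G ⧸ O)) : Set (G ⧸ O)),
      ∃ z ∈ Z, q z = y := by
    rintro y ⟨hyV, hyc⟩
    obtain ⟨s, hs, rfl⟩ := hRS (Subgroup.map_subtype_le _ hyV)
    refine ⟨s, ⟨hs, Subgroup.mem_centralizer_iff.mpr fun t ht => ?_⟩, rfl⟩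
    refine hinj2 _ (mul_mem ht hs) _ (mul_mem hs ht) ?_
    rw [map_mul, map_mul]
    exact Subgroup.mem_centralizer_iff.mp hyc _ ⟨t, ht, rfl⟩
  set W := Z ⊓ (Subgroup.center (G ⧸ O)).comap q with hW
  have hWiff : ∀ x : G, x ∈ W ↔ (x ∈ (S : Subgroup G) ∧
      ∀ g : G, g * x * g⁻¹ ∈ (S : Subgroup G) → g * x * g⁻¹ = x) := by
    intro x
    constructor
    · rintro ⟨hxZ, hxc⟩
      refine ⟨hxZ.1, fun g hg => hinj2 _ hg _ hxZ.1 ?_⟩
      rw [map_mul, map_mul, map_inv, Subgroup.mem_center_iff.mp hxc (q g), mul_inv_cancel_right]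
    · rintro ⟨hxS, hwc⟩
      have hxZ : x ∈ Z := by
        refine ⟨hxS, Subgroup.mem_centralizer_iff.mpr fun s hs => ?_⟩
        exact mul_inv_eq_iff_eq_mul.mp (hwc s (mul_mem (mul_mem hs hxS) (inv_mem hs)))
      refine ⟨hxZ, Subgroup.mem_center_iff.mpr fun y => ?_⟩
      obtain ⟨g, rfl⟩ := QuotientGroup.mk'_surjective O y
      have hxR : q x ∈ R := hZ hxZ
      obtain ⟨t, ht, htg⟩ := hRS
        (Subgroup.Normal.conj_mem (inferInstance : R.Normal) _ hxR (q g))
      -- move `g x g⁻¹` into `S` by an element of the `p'`-core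
      have hle : (Subgroup.zpowers t).map (MulAut.conj (1 : G)).toMonoidHom = Subgroup.zpowers t := by
        simp [MonoidHom.map_zpowers]
      have hPp : IsPGroup p ↥((Subgroup.zpowers x).map (MulAut.conj g).toMonoidHom) :=
        ((S.isPGroup'.to_le (Subgroup.zpowers_le.mpr hxS))).map _
      set M := (S : Subgroup G) ⊔ O with hM
      have hgxM : g * x * g⁻¹ ∈ O ⊔ (S : Subgroup G) := by
        have h1 : g * x * g⁻¹ * t⁻¹ ∈ O := by
          rw [← QuotientGroup.eq_one_iff]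
          show q (g * x * g⁻¹ * t⁻¹) = 1
          rw [map_mul, map_mul, map_mul, map_inv, map_inv, htg, mul_inv_cancel]
        have h2 := mul_mem (Subgroup.mem_sup_left h1 : g * x * g⁻¹ * t⁻¹ ∈ O ⊔ (S : Subgroup G))
          (Subgroup.mem_sup_right ht : t ∈ O ⊔ (S : Subgroup G))
        simpa using h2
      have hPM : (Subgroup.zpowers x).map (MulAut.conj g).toMonoidHom ≤ O ⊔ (S : Subgroup G) := by
        rw [MonoidHom.map_zpowers, Subgroup.zpowers_le]
        exact hgxM
      obtain ⟨Q, hQ⟩ := (hPp.comap_of_injective (O ⊔ (S : Subgroup G)).subtype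
        (Subgroup.subtype_injective _)).exists_le_sylow
      obtain ⟨m, hm⟩ := MulAction.exists_smul_eq ↥(O ⊔ (S : Subgroup G)) Q (S.subtype le_sup_right)
      obtain ⟨o, ho, s, hs, hos⟩ := Subgroup.mem_sup_of_normal_left.mp m.2
      have hmem : (m : G) * (g * x * g⁻¹) * (m : G)⁻¹ ∈ (S : Subgroup G) := by
        have h1 : (⟨g * x * g⁻¹, hgxM⟩ : ↥(O ⊔ (S : Subgroup G))) ∈ (Q : Subgroup _) :=
          hQ (Subgroup.mem_map.mpr ⟨x, Subgroup.mem_zpowers x, rfl⟩)
        have h2 : m * ⟨g * x * g⁻¹, hgxM⟩ * m⁻¹ ∈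
            (S.subtype (le_sup_right : (S : Subgroup G) ≤ O ⊔ (S : Subgroup G)) : Subgroup _) := by
          rw [← hm]
          exact ⟨_, h1, rfl⟩
        exact h2
      have hos' : s⁻¹ * ((m : G) * (g * x * g⁻¹) * (m : G)⁻¹) * s ∈ (S : Subgroup G) :=
        (S : Subgroup G).mul_mem ((S : Subgroup G).mul_mem ((S : Subgroup G).inv_mem hs) hmem) hs
      have hfix : (s⁻¹ * (m : G) * g) * x * (s⁻¹ * (m : G) * g)⁻¹ = x :=
        hwc _ (by convert hos' using 1; group)
      have hqs : q (s⁻¹ * (m : G) * g) = q (s⁻¹ * o * s) * q g := by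
        rw [← map_mul, ← hos, mul_assoc s⁻¹ o s]
      have hqo : q (s⁻¹ * o * s) = 1 :=
        (QuotientGroup.eq_one_iff _).mpr (by
          simpa using Subgroup.Normal.conj_mem (inferInstance : O.Normal) o ho s⁻¹)
      rw [hqo, one_mul] at hqs
      have h3 := congrArg q hfix
      rw [map_mul, map_mul, map_inv, hqs] at h3
      exact mul_inv_eq_iff_eq_mul.mp h3
  obtain ⟨K, hK, hKd, hKs⟩ := exists_complement_fixed_points V hVcomm hVp S'
  refine ⟨W, Z ⊓ K.comap q, hWiff, inf_le_left, ?_, ?_⟩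
  · rw [eq_bot_iff]
    rintro x ⟨hxW, -, hxK⟩
    refine hinj x hxW.1.1 (Subgroup.mem_bot.mp (hKd ▸ ?_))
    exact ⟨⟨(hZq x hxW.1).1, hxW.2⟩, hxK⟩
  · refine le_antisymm (sup_le inf_le_left inf_le_left) fun z hz => ?_
    haveI : (V ⊓ Subgroup.center (G ⧸ O)).Normal := inferInstance
    obtain ⟨w, hw, k, hk, hwk⟩ := Subgroup.mem_sup_of_normal_left.mp (hKs (hZq z hz))
    obtain ⟨z₁, hz₁, rfl⟩ := hlift w ⟨hw.1, Subgroup.center_le_centralizer _ hw.2⟩
    rw [show z = z₁ * (z₁⁻¹ * z) by group]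
    refine Subgroup.mul_mem_sup ⟨hz₁, hw.2⟩ ⟨Z.mul_mem (Z.inv_mem hz₁) hz, ?_⟩
    show q (z₁⁻¹ * z) ∈ K
    rw [map_mul, map_inv, ← hwk, inv_mul_cancel_left]
    exact hk

end CfsgLib.Constrained

namespace CfsgLib.Constrained

open Cfsg

variable {G : Type*} [Group G] {p : ℕ}

/-- The weakly closed elements form a direct factor of the centre of the Sylow subgroup. -/
def WeaklyClosedSplits (T : Subgroup G) : Prop :=
  ∃ W K : Subgroup G, (∀ x : G, x ∈ W ↔ (x ∈ T ∧ ∀ g : G, g * x * g⁻¹ ∈ T → g * x * g⁻¹ = x)) ∧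
    K ≤ (T ⊓ Subgroup.centralizer (T : Set G)) ∧ W ⊓ K = ⊥ ∧
    W ⊔ K = (T ⊓ Subgroup.centralizer (T : Set G))

theorem WeaklyClosedSplits.map_mulEquiv {T : Subgroup G} (h : WeaklyClosedSplits T) (e : G ≃* G) :
    WeaklyClosedSplits (T.map e.toMonoidHom) := by
  obtain ⟨W, K, hW, hK, hd, hs⟩ := h
  have hinj : Function.Injective e.toMonoidHom := e.injective
  have hc : T.map e.toMonoidHom ⊓ Subgroup.centralizer ((T.map e.toMonoidHom : Subgroup G) : Set G) =
      (T ⊓ Subgroup.centralizer (T : Set G)).map e.toMonoidHom := by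
    ext y
    obtain ⟨x, rfl⟩ := e.surjective y
    show e x ∈ T.map e.toMonoidHom ∧ e x ∈ Subgroup.centralizer _ ↔ e.toMonoidHom x ∈ _
    rw [Subgroup.mem_map_iff_mem (f := e.toMonoidHom) hinj, Subgroup.mem_inf,
      show e x ∈ T.map e.toMonoidHom ↔ x ∈ T from Subgroup.mem_map_iff_mem hinj]
    refine and_congr_right fun _ => ?_
    simp only [Subgroup.mem_centralizer_iff]
    constructor
    · intro h t ht
      exact e.injective (by simpa using h (e t) ⟨t, ht, rfl⟩)
    · rintro h _ ⟨t, ht, rfl⟩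
      show e t * e x = e x * e t
      rw [← map_mul, ← map_mul, h t ht]
  refine ⟨W.map e.toMonoidHom, K.map e.toMonoidHom, ?_, ?_, ?_, ?_⟩
  · intro y
    obtain ⟨x, rfl⟩ := e.surjective y
    rw [show e x ∈ W.map e.toMonoidHom ↔ x ∈ W from Subgroup.mem_map_iff_mem hinj, hW,
      show e x ∈ T.map e.toMonoidHom ↔ x ∈ T from Subgroup.mem_map_iff_mem hinj]
    refine and_congr_right fun _ => ?_
    constructor
    · intro h g
      obtain ⟨g, rfl⟩ := e.surjective g
      rw [← map_inv, ← map_mul, ← map_mul]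
      intro hg
      rw [h g ((Subgroup.mem_map_iff_mem hinj).mp hg)]
    · intro h g hg
      refine e.injective ?_
      simp only [map_mul, map_inv]
      refine h (e g) ?_
      rw [← map_inv, ← map_mul, ← map_mul]
      exact ⟨_, hg, rfl⟩
  · rw [hc]; exact Subgroup.map_mono hK
  · rw [← Subgroup.map_inf W K _ hinj, hd, Subgroup.map_bot]
  · rw [hc, ← Subgroup.map_sup, hs]

/-- If the normalizer of a normal subgroup `K` of `T` containing `Z(T)` controls weak closure, the
weakly closed elements split off in the centre. -/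
theorem weaklyClosedSplits_of_controls [Finite G] [Fact p.Prime] (T : Sylow p G) (K : Subgroup G)
    (hKT : K ≤ (T : Subgroup G)) (hn : (T : Subgroup G) ≤ Subgroup.normalizer (K : Set G))
    (hZ : (T : Subgroup G) ⊓ Subgroup.centralizer ((T : Subgroup G) : Set G) ≤ K)
    (hctrl : ∀ x ∈ (T : Subgroup G) ⊓
        Subgroup.centralizer ((Subgroup.normalizer (K : Set G) : Subgroup G) : Set G),
      ∀ g : G, g * x * g⁻¹ ∈ (T : Subgroup G) → g * x * g⁻¹ = x) :
    WeaklyClosedSplits (T : Subgroup G) := by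
  set N := Subgroup.normalizer (K : Set G) with hN
  let T' : Sylow p ↥N := T.subtype hn
  haveI : (K.subgroupOf N).Normal := Subgroup.normal_subgroupOf_iff_le_normalizer
    (hKT.trans hn) |>.mpr le_rfl
  have hKp : IsPGroup p ↥(K.subgroupOf N) :=
    (T.isPGroup'.to_le hKT).of_equiv (Subgroup.subgroupOfEquivOfLe (hKT.trans hn)).symm
  have hKO : K.subgroupOf N ≤ pCore p ↥N := le_pCore ‹_› hKp
  have hle : pCore p ↥N ≤ pPrimePCore p ↥N := fun x hx => by
    have : (pCore p ↥N).map (QuotientGroup.mk' (pPrimeCore p ↥N)) ≤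
        pCore p (↥N ⧸ pPrimeCore p ↥N) :=
      le_pCore (Subgroup.Normal.map inferInstance _ (QuotientGroup.mk'_surjective _))
        (isPGroup_pCore.map _)
    exact this ⟨x, hx, rfl⟩
  have hcT : ∀ x : ↥N, x ∈ (T' : Subgroup ↥N) ⊓ Subgroup.centralizer ((T' : Subgroup ↥N) : Set ↥N) ↔
      (x : G) ∈ (T : Subgroup G) ⊓ Subgroup.centralizer ((T : Subgroup G) : Set G) := by
    intro x
    simp only [Subgroup.mem_inf, Subgroup.mem_centralizer_iff]
    constructor
    · exact fun h => ⟨h.1, fun t ht => congrArg Subtype.val (h.2 ⟨t, hn ht⟩ ht)⟩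
    · exact fun h => ⟨h.1, fun t ht => Subtype.ext (h.2 t ht)⟩
  obtain ⟨W, K₁, hW, hK₁, hd, hs⟩ := exists_weakly_closed_factor T'
    (fun x hx => hle (hKO (hZ ((hcT x).mp hx))))
  have hWG : ∀ x : G, x ∈ W.map N.subtype ↔
      (x ∈ (T : Subgroup G) ∧ ∀ g : G, g * x * g⁻¹ ∈ (T : Subgroup G) → g * x * g⁻¹ = x) := by
    intro x
    constructor
    · rintro ⟨w, hw, rfl⟩
      obtain ⟨hwT, hwc⟩ := (hW w).mp hw
      refine ⟨hwT, hctrl _ ⟨hwT, Subgroup.mem_centralizer_iff.mpr fun n hn' => ?_⟩⟩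
      have hwK : (w : G) ∈ K := hZ ((hcT w).mp (by rw [← hs]; exact Subgroup.mem_sup_left hw))
      have h1 : n * (w : G) * n⁻¹ ∈ (T : Subgroup G) :=
        hKT ((Subgroup.mem_normalizer_iff.mp hn' _).mp hwK)
      exact mul_inv_eq_iff_eq_mul.mp (congrArg Subtype.val (hwc ⟨n, hn'⟩ h1))
    · rintro ⟨hxT, hxc⟩
      exact ⟨⟨x, hn hxT⟩, (hW _).mpr ⟨hxT, fun g hg => Subtype.ext (hxc g hg)⟩, rfl⟩
  have hcm : (T : Subgroup G) ⊓ Subgroup.centralizer ((T : Subgroup G) : Set G) =
      ((T' : Subgroup ↥N) ⊓ Subgroup.centralizer ((T' : Subgroup ↥N) : Set ↥N)).map N.subtype := by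
    ext x
    constructor
    · exact fun hx => ⟨⟨x, hn hx.1⟩, (hcT _).mpr hx, rfl⟩
    · rintro ⟨y, hy, rfl⟩
      exact (hcT y).mp hy
  refine ⟨W.map N.subtype, K₁.map N.subtype, hWG, ?_, ?_, ?_⟩
  · rw [hcm]; exact Subgroup.map_mono hK₁
  · rw [← Subgroup.map_inf _ _ _ N.subtype_injective, hd, Subgroup.map_bot]
  · rw [hcm, ← Subgroup.map_sup, hs]

/-- The solvable case. -/
theorem weaklyClosedSplits_of_isPSolvable [Finite G] [Fact p.Prime] (h : IsPSolvable p G)
    (S : Sylow p G) : WeaklyClosedSplits (S : Subgroup G) := by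
  refine exists_weakly_closed_factor S fun z hz => ?_
  set q := QuotientGroup.mk' (pPrimeCore p G) with hq
  have hR : pCore p (G ⧸ pPrimeCore p G) ≤ (S : Subgroup G).map q :=
    isPGroup_pCore.le_sylow_of_normal (S.mapSurjective (QuotientGroup.mk'_surjective _))
  refine centralizer_pCore_quotient_le h ?_
  rw [Subgroup.mem_centralizer_iff]
  intro r hr
  obtain ⟨s, hs, rfl⟩ := hR hr
  show q s * q z = q z * q s
  rw [← map_mul, ← map_mul, Subgroup.mem_centralizer_iff.mp hz.2 s hs]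

end CfsgLib.Constrained
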